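import Mathlib

set_option autoImplicit false
set_option maxRecDepth 100000

namespace Cfsg.Agent.Lib.Helper3.L32.L2

noncomputable def fc0_0 (i : ℕ) : ℕ := (nat_lit 0x50000a40000050000a40000000000040000000000040000040000a50000050000860000040000660000030000850000010000460000020000250000000000080000000000080000000000070000000000070000030000a6000005000065000002000084000004000044000001000064000003000024000000000045000002000006000000000026000001000005)
noncomputable def sc0_0 (i : ℕ) : ℕ := (nat_lit 0xd00000500000f000007000015000001000012000007000010000005000002000b00050000090001000400000000000d00000200000f00001000000c0000080007000300000900000d00000300000e00000a0005000200000d00000a000200010000fffe0000fffe0000ffff0000ffff0000ffff0000ffff0000ffff)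
noncomputable def nc0_0 (i : ℕ) : ℕ := (nat_lit 0x5000004000003000002000001000000)
noncomputable def cc0_0 (i : ℕ) : ℕ := (nat_lit 0x300000800000500001600000500001300000200000600000400001000000100000400000100000e000004000007000000000000000003000005000002000003000000000014)

end Cfsg.Agent.Lib.Helper3.L32.L2
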