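import Cfsg.Agent.Lib.Helper3.Stcs6

set_option autoImplicit false
set_option maxRecDepth 100000

namespace Cfsg.Agent.Lib.Helper3.L32

open Cfsg.Agent.Lib.Helper11 Cfsg.Agent.Lib.Helper3

set_option maxHeartbeats 0

noncomputable def ntl : List (List (ℕ × ℕ)) := [[], [(0xc, 4), (0x2, 2), (0x44, 1), (0x2, 2), (0xc, 4)], [(0xa, 4), (0x30, 2), (0x11, 1), (0x20, 2), (0x8, 4)], [(0x8, 4), (0x10, 2), (0x41, 1), (0x0, 2), (0xa, 4)], [(0xc, 4), (0x30, 2), (0x0, 1), (0x0, 2), (0xc, 4)], [(0xa, 4), (0x22, 2), (0x14, 1), (0x2, 2), (0xe, 4)], [(0xe, 4), (0x2, 2), (0x14, 1), (0x22, 2), (0xa, 4)], [(0xc, 4), (0x30, 2), (0x0, 1), (0x0, 2), (0xc, 4)], [(0x0, 4), (0x0, 2), (0x14, 1), (0x0, 2), (0x0, 4)]]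
noncomputable def INV : ℕ := 9042185489440
abbrev deg : ℕ := 7

theorem setup : NetSetup ntl deg 3 INV 8 where
  hok := by decide +kernel
  hstab := by decide +kernel
  hlen := by decide +kernel
  h0 := by decide +kernel
  hINV := by decide +kernel
  hINV0 := by decide +kernel
  htriv := by decide +kernel

end Cfsg.Agent.Lib.Helper3.L32
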